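import Cfsg.Agent.H883.Sub

/-!
# S3691, row `PΩ⁺₈(q)`, SPIN: the data of `Ω₇(q)`: definitions (helper36)

* `Fr` : hyperbolic frame `u i`, `v i` (`i : Fin 3`), `w` of a space of dimension seven;
* `OY Q Y` : the isometries which are trivial on `Y^⊥`; `DY Q Y` : its commutator subgroup (`Ω(Y)`).
-/

set_option autoImplicit false

namespace Cfsg.Agent.H36.Om7

open QuadraticMap Cfsg.Agent.LieClassical.OrthCore Cfsg.Agent.LieClassical.OrthTrans Cfsg.Agent.H883.Sub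

variable {F V : Type*} [Field F] [AddCommGroup V] [Module F V]

/-- hyperbolic frame -/
structure Fr (Q : QuadraticForm F V) (u v : Fin 3 → V) (w : V) : Prop where
  u0 : ∀ i, Q (u i) = 0
  v0 : ∀ i, Q (v i) = 0
  w1 : Q w = 1
  uu : ∀ i j, polar Q (u i) (u j) = 0
  vv : ∀ i j, polar Q (v i) (v j) = 0
  uv : ∀ i j, polar Q (u i) (v j) = if i = j then 1 else 0
  uw : ∀ i, polar Q (u i) w = 0
  vw : ∀ i, polar Q (v i) w = 0
  span : Submodule.span F (Set.range u ∪ Set.range v ∪ {w}) = ⊤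

/-- the isometries of `Y`, extended by the identity on `Y^⊥` -/
def OY (Q : QuadraticForm F V) (Y : Submodule F V) : Subgroup (V ≃ₗ[F] V) where
  carrier := {g | g ∈ O Q ∧ ∀ v ∈ perp Q Y, g v = v}
  one_mem' := ⟨one_mem _, fun _ _ => rfl⟩
  mul_mem' := by
    rintro g h ⟨hg, hg'⟩ ⟨hh, hh'⟩
    exact ⟨mul_mem hg hh, fun v hv => by rw [LinearEquiv.mul_apply, hh' v hv, hg' v hv]⟩
  inv_mem' := by
    rintro g ⟨hg, hg'⟩
    refine ⟨inv_mem hg, fun v hv => ?_⟩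
    show g.symm v = v
    rw [LinearEquiv.symm_apply_eq, hg' v hv]

theorem mem_OY {Q : QuadraticForm F V} {Y : Submodule F V} {g : V ≃ₗ[F] V} :
    g ∈ OY Q Y ↔ g ∈ O Q ∧ ∀ v ∈ perp Q Y, g v = v := Iff.rfl

/-- `Ω(Y)` -/
def DY (Q : QuadraticForm F V) (Y : Submodule F V) : Subgroup (V ≃ₗ[F] V) := ⁅OY Q Y, OY Q Y⁆

end Cfsg.Agent.H36.Om7
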